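import Mathlib
import Cfsg.Agent.Lib.Frob.Complement
import Cfsg.Agent.Lib.Core.MinNormal

/-! Fixed subgroups of maximal subgroups of an abelian group acting coprimely; regular orbits. -/

set_option autoImplicit false

namespace CfsgLib.SnCrit

open Subgroup Cfsg MulAction
open scoped Pointwise commutatorElement

variable {G V : Type*} [Group G] [CommGroup V] [MulDistribMulAction G V]

variable (V) in
/-- the fixed subgroup -/
def Fix (H : Subgroup G) : Subgroup V where
  carrier := {v | H ≤ stabilizer G v}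
  one_mem' := fun h _ => smul_one h
  mul_mem' := fun {a b} ha hb h hh => by
    rw [mem_stabilizer_iff, smul_mul', mem_stabilizer_iff.1 (ha hh), mem_stabilizer_iff.1 (hb hh)]
  inv_mem' := fun {a} ha h hh => by
    rw [mem_stabilizer_iff, smul_inv', mem_stabilizer_iff.1 (ha hh)]

theorem mem_Fix {H : Subgroup G} {v : V} : v ∈ Fix V H ↔ ∀ h ∈ H, h • v = v := Iff.rfl

theorem smul_mem_Fix {H : Subgroup G} {v : V} (hv : v ∈ Fix V H) (g : G) :
    g • v ∈ Fix V (MulAut.conj g • H) := fun h hh => by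
  have := hv (Frob.mem_conj_smul_iff.1 hh)
  rwa [mem_stabilizer_iff, mul_smul, mul_smul, inv_smul_eq_iff] at this

/-- The action on an invariant subgroup. -/
@[reducible] def resAct {N : Subgroup G} {W : Subgroup V} (h : ∀ g ∈ N, ∀ w ∈ W, g • w ∈ W) :
    MulDistribMulAction N W where
  smul g u := ⟨(g : G) • (u : V), h g g.2 u u.2⟩
  one_smul u := Subtype.ext (one_smul G (u : V))
  mul_smul a b u := Subtype.ext (mul_smul (a : G) (b : G) (u : V))
  smul_one g := Subtype.ext (smul_one (g : G))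
  smul_mul g a b := Subtype.ext (smul_mul' (g : G) (a : V) b)

variable (V) in
/-- maximal subgroups of `F` with a fixed point -/
def Blk (F H : Subgroup G) : Prop := Maximal (fun H => H ≤ F ∧ Fix V H ≠ ⊥) H

theorem Blk.exists_vec {F H : Subgroup G} (h : Blk V F H) : ∃ w ∈ Fix V H, w ≠ 1 :=
  (bot_or_exists_ne_one _).resolve_left h.1.2

theorem Blk.mem {F H : Subgroup G} (h : Blk V F H) {w : V} (hw : w ∈ Fix V H) (h1 : w ≠ 1)
    {x : G} (hx : x ∈ F) (e : x • w = w) : x ∈ H :=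
  h.le_of_ge (y := H ⊔ zpowers x) ⟨sup_le h.1.1 (zpowers_le.2 hx), fun e' => h1 (mem_bot.1 (e' ▸
    (sup_le hw (zpowers_le.2 e) : w ∈ Fix V (H ⊔ zpowers x))))⟩ le_sup_left
    (mem_sup_right (mem_zpowers x))

theorem exists_blk [Finite G] {F H : Subgroup G} (h : H ≤ F) {w : V} (hw : w ∈ Fix V H)
    (h1 : w ≠ 1) : ∃ H', H ≤ H' ∧ Blk V F H' :=
  Finite.exists_le_maximal (p := fun H => H ≤ F ∧ Fix V H ≠ ⊥)
    ⟨h, fun e => h1 (mem_bot.1 (e ▸ hw))⟩

theorem Blk.conj {F H : Subgroup G} [hF : F.Normal] (h : Blk V F H) (g : G) :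
    Blk V F (MulAut.conj g • H) := by
  have key : ∀ (g : G) (H : Subgroup G), (H ≤ F ∧ Fix V H ≠ ⊥) →
      (MulAut.conj g • H ≤ F ∧ Fix V (MulAut.conj g • H) ≠ ⊥) := fun g H hH => by
    obtain ⟨w, hw, h1⟩ := (bot_or_exists_ne_one _).resolve_left hH.2
    refine ⟨fun x hx => ?_, fun e => h1 ?_⟩
    · simpa [mul_assoc] using hF.conj_mem _ (hH.1 (Frob.mem_conj_smul_iff.1 hx)) g
    · exact MulAction.injective g ((mem_bot.1 (e ▸ smul_mem_Fix hw g : g • w ∈ ⊥)).trans
        (smul_one g).symm)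
  refine ⟨key g H h.1, fun K hK hle => ?_⟩
  have := h.2 (key g⁻¹ K hK) (by rwa [map_inv, ← pointwise_smul_subset_iff])
  rwa [map_inv, ← subset_pointwise_smul_iff] at this

variable [Finite G]

/-- the norm map -/
noncomputable def nm (H : Subgroup G) : V →* V :=
  letI := Fintype.ofFinite H
  ∏ h : H, MulDistribMulAction.toMonoidHom V (h : G)

theorem nm_apply (H : Subgroup G) [Fintype H] (v : V) : nm H v = ∏ h : H, (h : G) • v := by
  rw [nm, MonoidHom.finsetProd_apply]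
  exact Finset.prod_congr (by congr; exact Subsingleton.elim _ _) fun _ _ => rfl

theorem nm_conj (H : Subgroup G) (g : G) (v : V) :
    nm (MulAut.conj g • H) (g • v) = g • nm H v := by
  classical
  have := Fintype.ofFinite G
  rw [nm_apply, nm_apply, Finset.smul_prod', eq_comm]
  refine Fintype.prod_equiv (equivSMul (MulAut.conj g) H).toEquiv _ _ fun h => ?_
  change g • (h : G) • v = (g * h * g⁻¹) • g • v
  rw [mul_smul, mul_smul, inv_smul_smul]

theorem conj_eq {H : Subgroup G} {g : G} (h : ∀ x ∈ H, g * x * g⁻¹ ∈ H) : MulAut.conj g • H = H :=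
  (eq_of_le_of_card_ge (fun x hx => by
    simpa [mul_assoc] using h _ (Frob.mem_conj_smul_iff.1 hx)) (Frob.card_conj_smul H g).ge)

theorem nm_mem (H : Subgroup G) (v : V) : nm H v ∈ Fix V H := fun g hg => by
  classical
  have := Fintype.ofFinite G
  rw [mem_stabilizer_iff, nm_apply, Finset.smul_prod']
  exact Fintype.prod_equiv (Equiv.mulLeft (⟨g, hg⟩ : H)) _ _ fun h => (mul_smul g (h : G) v).symm

theorem nm_of_mem {H : Subgroup G} {v : V} (hv : v ∈ Fix V H) : nm H v = v ^ Nat.card H := by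
  classical
  have := Fintype.ofFinite G
  rw [nm_apply, Finset.prod_congr rfl fun (h : H) _ => hv h.2, Finset.prod_const,
    Finset.card_univ, Nat.card_eq_fintype_card]

theorem conj_eq_of_le {F H : Subgroup G} [IsMulCommutative F] (h : H ≤ F) {g : G} (hg : g ∈ F) :
    MulAut.conj g • H = H := conj_eq fun x hx => by
  rwa [setLike_mul_comm (s := F) hg (h hx), mul_inv_cancel_right]

theorem nm_other {F H H' : Subgroup G} [IsMulCommutative F] (h : Blk V F H) (h' : Blk V F H')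
    (hne : H' ≠ H) {w : V} (hw : w ∈ Fix V H') : nm H w = 1 := by
  by_contra h1
  have h2 : nm H w ∈ Fix V H' := fun g hg => by
    rw [mem_stabilizer_iff, ← nm_conj, conj_eq_of_le h.1.1 (h'.1.1 hg), hw hg]
  exact hne (h'.eq_of_le h.1 fun x hx => h.mem (nm_mem H w) h1 (h'.1.1 hx) (h2 hx))

theorem exists_vec {F : Subgroup G} [IsMulCommutative F] [F.Normal]
    (hc : (Nat.card V).Coprime (Nat.card F)) (w : Subgroup G → V) (hw : ∀ H, w H ∈ Fix V H) :
    ∃ v : V, ∀ b : G, b • v = v → ∀ H, Blk V F H → b • w H = w (MulAut.conj b • H) := by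
  classical
  let s := (Set.toFinite {H | Blk V F H}).toFinset
  have key : ∀ H, Blk V F H → nm H (∏ K ∈ s, w K) = w H ^ Nat.card H := fun H hH => by
    rw [map_prod, Finset.prod_eq_single H (fun K hK hne => nm_other hH (by simpa [s] using hK) hne
      (hw K)) fun h => absurd (by simpa [s] using hH) h, nm_of_mem (hw H)]
  refine ⟨∏ K ∈ s, w K, fun b hb H hH => ?_⟩
  have := nm_conj H b (∏ K ∈ s, w K)
  rw [hb, key _ (hH.conj b), key H hH, Frob.card_conj_smul, smul_pow'] at this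
  exact ((hc.coprime_dvd_right (card_dvd_of_le hH.1.1)).pow_left_bijective.1 this).symm

omit [Finite G] in
theorem eq_one_of_pow {p : ℕ} (hp : p.Prime) (hV : ¬ p ∣ Nat.card V) {w : V} (h : w ^ p = 1) :
    w = 1 :=
  (hp.coprime_iff_not_dvd.2 hV).symm.pow_left_bijective.1 (h.trans (one_pow p).symm)

omit [Finite G] in
theorem rank_two {p : ℕ} (hp : p.Prime) (hV : ¬ p ∣ Nat.card V) {F H : Subgroup G}
    (hF : IsElementaryAbelian p F) (hH : Blk V F H) {z x : G} (hz : z ∈ F) (hzH : z ∉ H)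
    (hx : x ∈ F) : ∃ i : ℤ, x * z ^ i ∈ H := by
  have := hF.1
  have := Fact.mk hp
  let _ := resAct (N := F) (W := Fix V H) fun g hg w hw h hh => by
    rw [mem_stabilizer_iff, ← mul_smul, setLike_mul_comm (s := F) (hH.1.1 hh) hg, mul_smul, hw hh]
  let ρ := MulDistribMulAction.toMulAut F (Fix V H)
  obtain ⟨w, hw, h1⟩ := hH.exists_vec
  have k1 : ∀ f : F, ρ f = 1 → (f : G) ∈ H := fun f e =>
    hH.mem hw h1 f.2 (congrArg (fun a : MulAut (Fix V H) => (a ⟨w, hw⟩ : V)) e)
  have k2 : ∀ f : F, ρ.rangeRestrict f ^ p = 1 := fun f => by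
    rw [← map_pow, (Subtype.ext (hF.2 f f.2) : f ^ p = 1), map_one]
  by_contra! hc
  refine h1 (eq_one_of_pow hp hV (congrArg Subtype.val (Frob.pow_eq_one_of_fpf_rank_two
    ρ.range.subtype ?_ hp (x := ρ.rangeRestrict ⟨z, hz⟩) (y := ρ.rangeRestrict ⟨x, hx⟩)
    (Commute.map (mul_comm' _ _) _) (orderOf_eq_prime (k2 _) fun e => hzH (k1 ⟨z, hz⟩
      (congrArg Subtype.val e))) (k2 _) ?_ ⟨w, hw⟩)))
  · rintro ⟨_, f, rfl⟩ hf u hu
    by_contra hu1
    have := hH.mem u.2 (fun e => hu1 (Subtype.ext e)) f.2 (congrArg Subtype.val hu)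
    exact hf (Subtype.ext (MulEquiv.ext fun a => Subtype.ext (a.2 this)))
  · rintro ⟨i, hi⟩
    refine hc (-i) (k1 (⟨x, hx⟩ * ⟨z, hz⟩ ^ (-i)) ?_)
    have := congrArg Subtype.val hi
    simp only [SubgroupClass.coe_zpow, MonoidHom.coe_rangeRestrict] at this
    rw [map_mul, map_zpow, ← this, ← zpow_add, add_neg_cancel, zpow_zero]

omit [Finite G] in
theorem exists_pow {p : ℕ} [Fact p.Prime] {x : G} {k : ℕ} (h : x ^ p ^ k = 1) (h1 : x ≠ 1) :
    ∃ j : ℕ, x ^ j ≠ 1 ∧ (x ^ j) ^ p = 1 := by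
  induction k with
  | zero => exact absurd (by simpa using h) h1
  | succ k ih =>
    by_cases h2 : x ^ p ^ k = 1
    · exact ih h2
    · exact ⟨_, h2, by rw [← pow_mul, ← pow_succ, h]⟩

/-- a regular orbit for a group of class two whose centre acts without fixed points -/
theorem regular {p : ℕ} [hp : Fact p.Prime] (h2 : p ≠ 2) (hG : IsPGroup p G)
    (hV : ¬ p ∣ Nat.card V) [Nontrivial V] (hc : ∀ x y : G, ⁅x, y⁆ ∈ center G)
    (hZ : ∀ z ∈ center G, ∀ v : V, v ≠ 1 → z • v = v → z = 1) :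
    ∃ v : V, ∀ x : G, x • v = v → x = 1 := by
  classical
  suffices h : ∃ v : V, ∀ x : G, x ^ p = 1 → x • v = v → x = 1 by
    obtain ⟨v, hv⟩ := h
    refine ⟨v, fun x hx => by_contra fun h1 => ?_⟩
    obtain ⟨k, hk⟩ := hG x
    obtain ⟨j, h3, h4⟩ := exists_pow hk h1
    exact h3 (hv _ h4 (pow_mem (mem_stabilizer_iff.2 hx) j))
  obtain ⟨u, hu⟩ := exists_ne (1 : V)
  by_cases h1 : ∀ x : G, x ^ p = 1 → x ∈ center G
  · exact ⟨u, fun x hx => hZ x (h1 x hx) u hu⟩
  push Not at h1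
  obtain ⟨x₁, h1, h1'⟩ := h1
  have := hG.isNilpotent
  obtain ⟨F, -, hFn, hF, hF'⟩ := PGroup.exists_normal_elementary_ge hp.out h2 (⊥ : Subgroup G)
    (Core.isElementaryAbelian_bot p)
  have := hF.1
  obtain ⟨z, -, hz, hz'⟩ := Core.exists_mem_center_orderOf_eq hG (N := ⊤) fun e =>
    h1' (mem_bot.1 (e ▸ mem_top x₁) ▸ one_mem _)
  have hzF := hF' z (center_le_centralizer _ hz) (hz' ▸ pow_orderOf_eq_one z)
  have k1 : ∀ {H}, Blk V F H → ∀ {c}, c ∈ H → c ∈ center G → c = 1 := fun hH c hc hc' => by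
    obtain ⟨w, hw, h1⟩ := hH.exists_vec
    exact hZ c hc' w h1 (hw hc)
  have k2 : ∀ {H}, Blk V F H → ∀ {y}, MulAut.conj y • H = H → y ∈ centralizer (F : Set G) := by
    intro H hH y hy f hf
    obtain ⟨i, hi⟩ := rank_two hp.out hV hF hH hzF (fun e => hp.out.ne_one (by
      rw [← hz', k1 hH e hz, orderOf_one])) hf
    have a1 : y * (f * z ^ i) * y⁻¹ ∈ H := by
      rw [← hy, Frob.mem_conj_smul_iff]; simpa [mul_assoc] using hi
    have a2 := commutatorElement_eq_one_iff_mul_comm.1 (k1 hH (mul_mem a1 (inv_mem hi)) (hc y _))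
    rw [mul_assoc f, ← mem_center_iff.1 (zpow_mem hz i) y, ← mul_assoc, ← mul_assoc] at a2
    exact (mul_right_cancel a2).symm
  obtain ⟨H₀, -, h0⟩ := exists_blk (V := V) (bot_le (a := F)) (w := u)
    (fun h hh => by rw [mem_bot.1 hh]; exact one_mem _) hu
  obtain ⟨v, hv⟩ := exists_vec (F := F) (Core.isPGroup_coprime_card
    (Core.isElementaryAbelian_isPGroup hF) (hp.out.coprime_iff_not_dvd.2 hV).symm).symm
    (fun H => if h : Blk V F H ∧ H ≠ H₀ then h.1.exists_vec.choose else 1) fun H => by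
      split_ifs with h
      exacts [h.1.exists_vec.choose_spec.1, one_mem _]
  refine ⟨v, fun x hx e => by_contra fun hx1 => ?_⟩
  have a1 : x ∈ F := hF' x (k2 h0 (by_contra fun hne => by
    have := hv x e H₀ h0
    rw [dif_neg (fun h => h.2 rfl), dif_pos ⟨h0.conj x, hne⟩, smul_one] at this
    exact (h0.conj x).exists_vec.choose_spec.2 this.symm)) hx
  have a2 : ∀ y, y ∉ centralizer (F : Set G) → x ∈ MulAut.conj y • H₀ := fun y hy => by
    have := hv x e _ (h0.conj y)
    rw [conj_eq_of_le (h0.conj y).1.1 a1, dif_pos ⟨h0.conj y, fun e => hy (k2 h0 e)⟩] at this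
    exact (h0.conj y).mem (h0.conj y).exists_vec.choose_spec.1
      (h0.conj y).exists_vec.choose_spec.2 a1 this
  have a3 : x ∉ center G := fun hxZ => by
    have : ¬ F ≤ center G := fun h => h1' (h (hF' x₁ (fun f hf => (mem_center_iff.1 (h hf) _).symm) h1))
    obtain ⟨f, hf, hf'⟩ := SetLike.not_le_iff_exists.1 this
    obtain ⟨y, hy⟩ := not_forall.1 (mt mem_center_iff.2 hf')
    exact hx1 (k1 (h0.conj y) (a2 y fun h => hy (h f hf).symm) hxZ)
  obtain ⟨y, hy⟩ := not_forall.1 (mt mem_center_iff.2 a3)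
  have a4 : y ∉ centralizer (F : Set G) := fun h => hy (h x a1).symm
  have a5 : y ^ 2 ∉ centralizer (F : Set G) := fun h => a4 (by
    obtain ⟨k, hk⟩ := IsPGroup.iff_orderOf.1 hG y
    exact zpowers_le.2 h (mem_zpowers_pow_iff.2 (by
      rw [hk]; exact ((Nat.coprime_primes Nat.prime_two hp.out).2 h2.symm).pow_right k)))
  have a6 : y * x * y⁻¹ ∈ MulAut.conj (y ^ 2) • H₀ := by
    have := Frob.mem_conj_smul_iff.1 (a2 y a4)
    rw [Frob.mem_conj_smul_iff]
    convert this using 1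
    rw [pow_two]; group
  exact hy (commutatorElement_eq_one_iff_mul_comm.1 (k1 (h0.conj (y ^ 2))
    (mul_mem a6 (inv_mem (a2 _ a5))) (hc y x)))

end CfsgLib.SnCrit
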