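import Mathlib
import Cfsg.Agent.Lib.SnCrit.Blk
import Cfsg.Agent.Lib.Base.Main
import Cfsg.Agent.Lib.PGroup.Symplectic
import Cfsg.Agent.Lib.Core.Cores

/-! A vector fixed by no conjugate of a given element of a normal `p`-subgroup, `p` odd, and a
criterion for membership of the `p`-core of a solvable group. -/

set_option autoImplicit false

namespace CfsgLib.SnCrit

open Subgroup Cfsg MulAction
open scoped Pointwise commutatorElement

universe u

theorem exists_col {P Ω : Type*} [Group P] [Finite P] [Group.IsSolvable P] [MulAction P Ω]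
    (hP : Odd (Nat.card P)) : ∃ f : Ω → Fin 2, ∀ (s : P) (ω : Ω),
      (∀ g : P, f (s • g • ω) = f (g • ω)) → s • ω = ω := by
  choose F hF using fun ω : Ω => Base.dist_two hP (stabilizer P ω)
  let r : Ω → Ω := fun ω => (Quotient.mk (orbitRel P Ω) ω).out
  have h1 : ∀ ω, ∃ t : P, t • r ω = ω := fun ω =>
    (orbitRel P Ω).symm (Quotient.mk_out (s := orbitRel P Ω) ω)
  choose t ht using h1
  have h2 : ∀ (g : P) ω, r (g • ω) = r ω := fun g ω =>
    congrArg Quotient.out (Quotient.sound (mem_orbit ω g))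
  have h3 : ∀ (g : P) ω, F (r (g • r ω)) (t (g • r ω)) = F (r ω) g := fun g ω => by
    have e : r (g • r ω) = r ω := by rw [h2, ← h2 (t ω), ht]
    have e' := ht (g • r ω)
    rw [e] at e' ⊢
    congr 1
    exact QuotientGroup.eq.2 (by rw [mem_stabilizer_iff, mul_smul, inv_smul_eq_iff, e'])
  refine ⟨fun ω => F (r ω) (t ω), fun s ω h => ?_⟩
  have := hF (r ω) s (fun g => by
    have := h (g * (t ω)⁻¹)
    beta_reduce at this
    rwa [mul_smul, inv_smul_eq_iff.2 (ht ω).symm, ← mul_smul, h3, h3] at this) (t ω)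
  rwa [mem_stabilizer_iff, mul_smul, mul_smul, ht, inv_smul_eq_iff, ht] at this

/-- the statement proved by induction -/
def Good (p : ℕ) (G V : Type*) [Group G] [CommGroup V] [MulDistribMulAction G V] : Prop :=
  ∀ P : Subgroup G, P.Normal → (∀ y ∈ P, ∃ k, ∀ v : V, y ^ p ^ k • v = v) → ∀ a ∈ P,
    (∃ v : V, a • v ≠ v) → ∃ v : V, ∀ g : G, (g * a * g⁻¹) • v ≠ v

theorem class_two {P : Type*} [Group P] [Finite P] {p : ℕ} [Fact p.Prime] (h2 : p ≠ 2)
    (hP : IsPGroup p P) (hs : ∀ A : Subgroup P, A.Characteristic → IsMulCommutative A → IsCyclic A)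
    (x y : P) : ⁅x, y⁆ ∈ center P := by
  obtain ⟨E, R, h1, h3, h4, h5⟩ := PGroup.symplectic_type hP hs
  have hR := h5.resolve_right fun h => h2 h.1
  have hZ : R ≤ center P := fun r hr => mem_center_iff.2 fun g => by
    have : E ⊔ R ≤ centralizer {r} := sup_le (fun e he => mem_centralizer_singleton_iff.2
      (h1 e he r hr)) fun e he => mem_centralizer_singleton_iff.2 (setLike_mul_comm (s := R) he hr)
    exact mem_centralizer_singleton_iff.1 (this (h3 ▸ mem_top g))
  have := Core.normal_of_le_center hZ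
  have hE : ∀ g, ∃ e ∈ E, ∃ r ∈ R, e * r = g := fun g => mem_sup_of_normal_right.1 (h3 ▸ mem_top g)
  have k : ∀ {a b r s : P}, r ∈ R → s ∈ R → ⁅a * r, b * s⁆ = ⁅a, b⁆ := fun {a b r s} hr hs => by
    have e1 := mem_center_iff.1 (hZ hr)
    have e2 := mem_center_iff.1 (hZ hs)
    calc ⁅a * r, b * s⁆ = a * (r * (b * s)) * r⁻¹ * (a⁻¹ * s⁻¹) * b⁻¹ := by group
      _ = a * b * (s * a⁻¹) * s⁻¹ * b⁻¹ := by rw [← e1]; group
      _ = _ := by rw [← e2]; group
  obtain ⟨a, ha, r, hr, rfl⟩ := hE x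
  obtain ⟨b, hb, s, hs, rfl⟩ := hE y
  rw [k hr hs]
  rcases h4 with rfl | h4
  · rw [mem_bot.1 ha, commutatorElement_one_left]; exact one_mem _
  refine mem_center_iff.2 fun g => ?_
  obtain ⟨c, hc, t, ht, rfl⟩ := hE g
  have h6 : ⁅(⟨a, ha⟩ : E), ⟨b, hb⟩⁆ ∈ center E :=
    h4.1.2.2 ▸ commutator_mem_commutator (mem_top _) (mem_top _)
  have h7 : c * ⁅a, b⁆ = ⁅a, b⁆ * c := congrArg Subtype.val (mem_center_iff.1 h6 ⟨c, hc⟩)
  rw [mul_assoc, ← mem_center_iff.1 (hZ ht), ← mul_assoc, h7, mul_assoc]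

section Step

variable {p : ℕ} [hp : Fact p.Prime] {G V : Type u} [Group G] [Finite G] [CommGroup V] [Finite V]
  [MulDistribMulAction G V]

omit hp in
theorem sub (ih : ∀ (G' V' : Type u) [Group G'] [Finite G'] [CommGroup V'] [Finite V']
      [MulDistribMulAction G' V'], Nat.card V' < Nat.card V → ¬ p ∣ Nat.card V' → Good p G' V')
    (hV : ¬ p ∣ Nat.card V) {N : Subgroup G} {W : Subgroup V} (hW : W ≠ ⊤)
    (h : ∀ g ∈ N, ∀ w ∈ W, g • w ∈ W) {P : Subgroup G} [P.Normal] (hP : IsPGroup p P) {a : G}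
    (ha : a ∈ P) (haN : a ∈ N) {w : V} (hw : w ∈ W) (hw' : a • w ≠ w) :
    ∃ v ∈ W, ∀ g ∈ N, (g * a * g⁻¹) • v ≠ v := by
  let _ := resAct h
  obtain ⟨v, hv⟩ := ih N W (Core.card_lt_of_lt (H := W) (K := ⊤) hW.lt_top |>.trans_eq card_top)
    (fun e => hV (e.trans W.card_subgroup_dvd_card)) (P.subgroupOf N) inferInstance
    (fun y hy => (hP ⟨y, hy⟩).imp fun k hk v => by
      rw [(Subtype.ext (congrArg Subtype.val hk :) : y ^ p ^ k = 1), one_smul])
    ⟨a, haN⟩ ha ⟨⟨w, hw⟩, fun e => hw' (congrArg Subtype.val e)⟩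
  exact ⟨v, v.2, fun g hg e => hv ⟨g, hg⟩ (Subtype.ext e)⟩

theorem step [FaithfulSMul G V] (h2 : p ≠ 2)
    (ih : ∀ (G' V' : Type u) [Group G'] [Finite G'] [CommGroup V'] [Finite V']
      [MulDistribMulAction G' V'], Nat.card V' < Nat.card V → ¬ p ∣ Nat.card V' → Good p G' V')
    (hV : ¬ p ∣ Nat.card V) : Good p G V := by
  classical
  rintro P hPn hP' a ha ⟨u, hu⟩
  have hP : IsPGroup p P := fun y => (hP' y y.2).imp fun k hk =>
    Subtype.ext (eq_of_smul_eq_smul (α := V) fun v => by rw [OneMemClass.coe_one, one_smul]; exact hk v)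
  have cop : ∀ {H : Subgroup G}, H ≤ P → (Nat.card V).Coprime (Nat.card H) := fun h =>
    (Core.isPGroup_coprime_card (hP.to_le h) (hp.out.coprime_iff_not_dvd.2 hV).symm).symm
  have hcj : ∀ g, g * a * g⁻¹ ∈ P := hPn.conj_mem a ha
  -- no common fixed point of the conjugates of `a`
  by_cases h0 : ∃ W : Subgroup V, W ≠ ⊤ ∧ (∀ g : G, ∀ w ∈ W, g • w ∈ W) ∧ ∃ w ∈ W, a • w ≠ w
  · obtain ⟨W, h1, h3, w, hw, hw'⟩ := h0
    obtain ⟨v, -, hv⟩ := sub ih hV (N := ⊤) h1 (fun g _ => h3 g) hP ha (mem_top a) hw hw'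
    exact ⟨v, fun g => hv g (mem_top g)⟩
  push Not at h0
  have hU : ∀ w : V, w ≠ 1 → ∃ g : G, (g * a * g⁻¹) • w ≠ w := by
    let Q := normalClosure ({a} : Set G)
    have hQ : Q ≤ P := normalClosure_le_normal (by simpa using ha)
    have hQ' : ∀ g, MulAut.conj g • Q = Q := fun g => conj_eq fun x hx =>
      Normal.conj_mem inferInstance x hx g
    have h1 : (nm Q : V →* V).ker = ⊤ := by
      by_contra h1
      have h3 := h0 _ h1 fun g w hw => by
        rw [MonoidHom.mem_ker] at hw ⊢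
        rw [← hQ' g, nm_conj, hw, smul_one]
      have h4 := h3 (a • u / u) (by
        rw [MonoidHom.mem_ker, map_div, div_eq_one]
        conv_lhs => rw [← hQ' a, nm_conj]
        exact nm_mem Q u (subset_normalClosure rfl))
      have h5 : ∀ n : ℕ, a ^ n • u = u * (a • u / u) ^ n := fun n => by
        induction n with
        | zero => simp
        | succ n ih => rw [pow_succ', mul_smul, ih, smul_mul', smul_pow', h4, pow_succ',
            ← mul_assoc, mul_div_cancel]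
      obtain ⟨k, hk⟩ := hP' a ha
      have h6 := h5 (p ^ k)
      rw [hk, left_eq_mul, ← one_pow (p ^ k)] at h6
      exact hu (div_eq_one.1
        (((hp.out.coprime_iff_not_dvd.2 hV).symm.pow_right k).pow_left_bijective.1 h6))
    intro w hw
    by_contra! h3
    have h4 : w ∈ Fix V Q := (closure_le _).2 fun x hx => by
      obtain ⟨b, hb, hx'⟩ := Group.mem_conjugatesOfSet_iff.1 hx
      obtain ⟨g, rfl⟩ := isConj_iff.1 hx'
      exact (hb : b = a) ▸ h3 g
    have h5 : nm Q w = 1 := (h1 ▸ mem_top w : w ∈ (nm Q : V →* V).ker)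
    rw [nm_of_mem h4, ← one_pow (Nat.card Q)] at h5
    exact hw ((cop hQ).pow_left_bijective.1 h5)
  by_cases hA : ∃ E : Subgroup G, E.Normal ∧ IsMulCommutative E ∧ E ≤ P ∧ ∃ e ∈ E, e ≠ 1 ∧
      ∃ w : V, w ≠ 1 ∧ e • w = w
  · obtain ⟨E, hEn, hEc, hEP, e, he, he1, w, hw, hew⟩ := hA
    by_cases hA1 : ∀ g H, Blk V E H → MulAut.conj (g * a * g⁻¹) • H = H
    · obtain ⟨H₀, h3, h4⟩ := exists_blk (V := V) (zpowers_le.2 he) (w := w) (zpowers_le.2 hew) hw
      obtain ⟨w₀, hw₀, hw₀'⟩ := h4.exists_vec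
      obtain ⟨g₀, hg₀⟩ := hU w₀ hw₀'
      let N : Subgroup G := (stabilizer (MulAut G) H₀).comap MulAut.conj
      obtain ⟨v₀, hv₀, hv⟩ := sub ih hV (N := N) (W := Fix V H₀) (fun h => he1
        (eq_of_smul_eq_smul (α := V) fun v => by
          rw [one_smul]; exact (h ▸ mem_top v : v ∈ Fix V H₀) (h3 (mem_zpowers e))))
        (fun g hg w hw => (hg : MulAut.conj g • H₀ = H₀) ▸ smul_mem_Fix hw g) hP (hcj g₀)
        (hA1 g₀ H₀ h4) hw₀ hg₀
      obtain ⟨v, hv'⟩ := exists_vec (F := E) (cop hEP)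
        (fun H => if h : ∃ t : G, MulAut.conj t • H₀ = H then h.choose • v₀ else 1) fun H => by
          by_cases h : ∃ t : G, MulAut.conj t • H₀ = H
          · rw [dif_pos h]; exact (congrArg (Fix V) h.choose_spec).le (smul_mem_Fix hv₀ h.choose)
          · rw [dif_neg h]; exact one_mem _
      refine ⟨v, fun g hg => ?_⟩
      have h5 := hv' _ hg _ (h4.conj (g * g₀⁻¹))
      have h6 : ∃ t, MulAut.conj t • H₀ = MulAut.conj (g * g₀⁻¹) • H₀ := ⟨_, rfl⟩
      rw [hA1 g _ (h4.conj _), dif_pos h6] at h5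
      refine hv (h6.choose⁻¹ * (g * g₀⁻¹)) ?_ ?_
      · change MulAut.conj _ • H₀ = H₀
        rw [map_mul, mul_smul, map_inv, inv_smul_eq_iff, h6.choose_spec]
      · rw [← mul_smul, ← inv_smul_eq_iff, ← mul_smul] at h5
        convert h5 using 2; group
    · push Not at hA1
      obtain ⟨g₀, H₀, h3, h4⟩ := hA1
      have := hP.isNilpotent
      let _ := MulAction.compHom (Subgroup G) (MulAut.conj.comp P.subtype)
      obtain ⟨f, hf⟩ := exists_col (P := P) (Ω := Subgroup G) (by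
        obtain ⟨k, hk⟩ := hP.exists_card_eq
        exact hk ▸ (hp.out.odd_of_ne_two h2).pow)
      obtain ⟨v, hv⟩ := exists_vec (F := E) (cop hEP)
        (fun H => if h : Blk V E H ∧ f H = 0 then h.1.exists_vec.choose else 1) fun H => by
          split_ifs with h
          exacts [h.1.exists_vec.choose_spec.1, one_mem _]
      refine ⟨v, fun g hg => h4 ?_⟩
      have h5 := hf ⟨_, hcj g⟩ (MulAut.conj (g * g₀⁻¹) • H₀) fun t => by
        have h6 := (h3.conj (g * g₀⁻¹)).conj t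
        have h7 := hv _ hg _ h6
        change f (MulAut.conj (g * a * g⁻¹) • MulAut.conj (t : G) • _) = f (MulAut.conj (t : G) • _)
        generalize MulAut.conj (t : G) • MulAut.conj (g * g₀⁻¹) • H₀ = H at h6 h7 ⊢
        have h8 := h6.conj (g * a * g⁻¹)
        have h9 : ∀ i j : Fin 2, (i = 0 ↔ j = 0) → i = j := by decide
        refine h9 _ _ ⟨fun e => by_contra fun e' => ?_, fun e => by_contra fun e' => ?_⟩
        · rw [dif_neg fun h => e' h.2, dif_pos ⟨h8, e⟩, smul_one] at h7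
          exact h8.exists_vec.choose_spec.2 h7.symm
        · rw [dif_pos ⟨h6, e⟩, dif_neg fun h => e' h.2, smul_eq_iff_eq_inv_smul, smul_one] at h7
          exact h6.exists_vec.choose_spec.2 h7
      change MulAut.conj (g * a * g⁻¹) • MulAut.conj (g * g₀⁻¹) • H₀ = _ at h5
      rw [← mul_smul, ← inv_smul_eq_iff, ← mul_smul, ← map_inv, ← map_mul, ← map_mul] at h5
      convert h5 using 3; group
  push Not at hA
  have hnt : Nontrivial V := ⟨_, _, hu⟩
  obtain ⟨w, hw⟩ := exists_ne (1 : V)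
  have hB : ∀ A : Subgroup P, A.Characteristic → IsMulCommutative A → ∀ z ∈ A, ∀ v : V, v ≠ 1 →
      z • v = v → z = 1 := fun A h3 h4 z hz v hv e => by_contra fun h5 =>
    hA (A.map P.subtype) inferInstance inferInstance (map_subtype_le A) z (mem_map_of_mem _ hz)
      (fun e => h5 (Subtype.ext e)) v hv e
  obtain ⟨v, hv⟩ := regular (G := P) (V := V) h2 hP hV (class_two h2 hP fun A h3 h4 =>
    Frob.isCyclic_of_comm_of_forall_mem_zpowers h4 fun q hq x y hx hy => by_contra fun h5 => by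
      have h6 := Frob.pow_eq_one_of_fpf_rank_two (MulDistribMulAction.toMulAut A V)
        (fun a ha w hw => by_contra fun h => ha (Subtype.ext (hB A h3 h4 a a.2 w h hw))) hq
        (mul_comm' x y) hx (hy ▸ pow_orderOf_eq_one y) h5 w
      obtain ⟨k, hk⟩ := IsPGroup.iff_orderOf.1 (hP.to_subgroup A) x
      have h7 := (Nat.prime_dvd_prime_iff_eq hq hp.out).1 (hq.dvd_of_dvd_pow (hx.symm.trans hk).dvd)
      exact hw (eq_one_of_pow hp.out hV (h7 ▸ h6))) (hB _ inferInstance inferInstance)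
  refine ⟨v, fun g hg => hu ?_⟩
  have := congrArg Subtype.val (hv ⟨_, hcj g⟩ hg)
  rw [OneMemClass.coe_one, mul_inv_eq_one, mul_eq_left] at this
  rw [this, one_smul]

end Step

theorem good {p : ℕ} [Fact p.Prime] (h2 : p ≠ 2) (n : ℕ) : ∀ (G V : Type u) [Group G] [Finite G]
    [CommGroup V] [Finite V] [MulDistribMulAction G V], Nat.card V = n → ¬ p ∣ Nat.card V →
    Good p G V := by
  induction n using Nat.strong_induction_on with
  | _ n ih =>
  intro G V _ _ _ _ _ hn hV P hPn hP a ha ⟨u, hu⟩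
  let ρ := MulDistribMulAction.toMulAut G V
  obtain ⟨v, hv⟩ := step (G := ρ.range) (V := V) h2 (fun G' V' _ _ _ _ _ h => ih _ (hn ▸ h) G' V' rfl)
    hV (P.map ρ.rangeRestrict) (hPn.map _ ρ.rangeRestrict_surjective) (by
      rintro _ ⟨y, hy, rfl⟩
      exact (hP y hy).imp fun k hk v => by rw [← map_pow]; exact hk v) _ (mem_map_of_mem _ ha)
    ⟨u, hu⟩
  refine ⟨v, fun g hg => hv (ρ.rangeRestrict g) ?_⟩
  rw [← map_inv, ← map_mul, ← map_mul]
  exact hg

theorem le_pCore {p : ℕ} [hp : Fact p.Prime] (h2 : p ≠ 2) (n : ℕ) : ∀ (G : Type u) [Group G]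
    [Finite G] [Group.IsSolvable G], Nat.card G = n → ∀ A : Subgroup G,
    (∀ c : G, ∃ g : G, IsConj c g ∧ IsPGroup p ↥(A ⊔ MulAut.conj g • A)) → A ≤ pCore p G := by
  induction n using Nat.strong_induction_on with
  | _ n ih =>
  intro G _ _ _ hn A h
  rcases subsingleton_or_nontrivial G with h0 | h0
  · exact fun x _ => Subsingleton.elim 1 x ▸ one_mem _
  obtain ⟨q, V, hq, hVn, hV0, hV, -⟩ := Core.exists_elementaryAbelian_minimal_normal G
  have h1 : A ≤ (pCore p (G ⧸ V)).comap (QuotientGroup.mk' V) := by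
    refine map_le_iff_le_comap.1 (ih _ (hn ▸ Core.card_quotient_lt_of_ne_bot hV0) _ rfl _ fun c => ?_)
    obtain ⟨c, rfl⟩ := QuotientGroup.mk'_surjective V c
    obtain ⟨g, hg, hg'⟩ := h c
    refine ⟨_, (QuotientGroup.mk' V).map_isConj hg, (hg'.map (QuotientGroup.mk' V)).to_le ?_⟩
    refine sup_le (map_mono le_sup_left) fun x hx => ?_
    obtain ⟨y, hy, e⟩ := Frob.mem_conj_smul_iff.1 hx
    refine ⟨g * y * g⁻¹, mem_sup_right (Frob.mem_conj_smul_iff.2 (by simpa [mul_assoc] using hy)), ?_⟩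
    rw [map_mul, map_mul, map_inv, e]; group
  have hVq := Core.isElementaryAbelian_isPGroup hV
  by_cases hqp : q = p
  · subst hqp
    exact Core.comap_mk'_pCore hVq ▸ h1
  have := Fact.mk hq
  have hc : ¬ p ∣ Nat.card V := fun e => by
    obtain ⟨k, hk⟩ := hVq.exists_card_eq
    exact hqp ((Nat.prime_dvd_prime_iff_eq hp.out hq).1 (hp.out.dvd_of_dvd_pow (hk ▸ e))).symm
  have := (Core.pCore_characteristic p (G ⧸ V))
  set Y := (pCore p (G ⧸ V)).comap (QuotientGroup.mk' V)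
  have hY : ∀ y ∈ Y, ∃ k, y ^ p ^ k ∈ V := fun y hy => (Core.isPGroup_pCore p _ ⟨_, hy⟩).imp
    fun k hk => (QuotientGroup.eq_one_iff _).1 (congrArg Subtype.val hk :)
  have h3 : A ≤ centralizer (V : Set G) := by
    intro a ha
    by_contra h3
    have := hV.1
    let _ : CommGroup V := { (inferInstance : Group V) with mul_comm := mul_comm' }
    let _ := MulDistribMulAction.compHom V (MulAut.conjNormal (H := V))
    obtain ⟨v, hv⟩ := good h2 _ G V rfl hc Y inferInstance (fun y hy => (hY y hy).imp fun k hk v =>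
      Subtype.ext (by
        change y ^ p ^ k * v * (y ^ p ^ k)⁻¹ = v
        rw [setLike_mul_comm (s := V) hk v.2, mul_inv_cancel_right])) a (h1 ha) (by
      by_contra! h4
      exact h3 fun v hv => (mul_inv_eq_iff_eq_mul.1 (congrArg Subtype.val (h4 ⟨v, hv⟩))).symm)
    obtain ⟨g, hg, hg'⟩ := h v
    obtain ⟨t, rfl⟩ := isConj_iff.1 hg
    have h4 := hVn.conj_mem _ v.2 t
    refine hv t⁻¹ (Subtype.ext ?_)
    change t⁻¹ * a * t⁻¹⁻¹ * v * (t⁻¹ * a * t⁻¹⁻¹)⁻¹ = v
    have h5 : t * v * t⁻¹ * a * (t * v * t⁻¹)⁻¹ * a⁻¹ ∈ (A ⊔ MulAut.conj (t * v * t⁻¹) • A) ⊓ V := by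
      refine mem_inf.2 ⟨mul_mem (mem_sup_right (Frob.mem_conj_smul_iff.2 ?_))
        (mem_sup_left (inv_mem ha)), ?_⟩
      · simpa [mul_assoc] using ha
      · simpa [mul_assoc] using mul_mem h4 (hVn.conj_mem _ (inv_mem h4) a)
    rw [Core.inf_eq_bot_of_coprime_card (Core.isPGroup_coprime_card hg'
      (hp.out.coprime_iff_not_dvd.2 hc).symm), mem_bot, mul_inv_eq_one, mul_inv_eq_iff_eq_mul] at h5
    calc _ = t⁻¹ * (a * (t * v * t⁻¹)) * a⁻¹ * t := by group
      _ = _ := by rw [← h5]; group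
  let Z := Y ⊓ centralizer (V : Set G)
  have hZ : Group.IsNilpotent Z := by
    have h4 : IsPGroup p ((QuotientGroup.mk' V).comp Z.subtype).range := by
      rintro ⟨_, y, rfl⟩
      exact (hY y y.2.1).imp fun k hk => Subtype.ext ((QuotientGroup.eq_one_iff _).2 hk)
    have := h4.isNilpotent
    refine Subgroup.isNilpotent_of_ker_le_center ((QuotientGroup.mk' V).comp Z.subtype).rangeRestrict
      (fun y hy => mem_center_iff.2 fun g => Subtype.ext (g.2.2 y ?_).symm)
    exact (QuotientGroup.eq_one_iff _).1 (congrArg Subtype.val hy :)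
  obtain ⟨_, -, hA⟩ := h 1
  obtain ⟨S, hS⟩ := ((hA.to_le le_sup_left).comap_subtype (K := Z)).exists_le_sylow
  have : (S : Subgroup Z).Normal := Sylow.normal_of_normalizerCondition
    Group.normalizerCondition_of_isNilpotent S
  refine fun a ha => Core.map_pCore_le_of_normal Z ⟨⟨a, h1 ha, h3 ha⟩, ?_, rfl⟩
  exact Core.pCore_eq_sylow_of_normal S ▸ hS ha

end CfsgLib.SnCrit
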